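import Groth.Agent.Cohder.RDAcyc

/-!
# Comparison of right derived functors along exact functors

`T : A ⥤ B`, `T' : A' ⥤ B'` left exact, `P : A ⥤ A'`, `Q : B ⥤ B'` exact, `θ : T ⋙ Q ≅ P ⋙ T'`, and `P I` is
`T'`-acyclic for `I` injective: then `Q (RⁿT G) ≅ RⁿT' (P G)`.
-/

set_option autoImplicit false

open CategoryTheory CategoryTheory.Limits

namespace Groth.Agent.Htor.H255.DimShift

open Groth.Agent.Cohder.RDAcyc Groth.Agent.Cohder

universe v₁ v₂ v₃ v₄ u₁ u₂ u₃ u₄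

section Shift

variable {A : Type u₁} {B : Type u₂} [Category.{v₁} A] [Category.{v₂} B] [Abelian A] [Abelian B]
  [HasInjectiveResolutions A] (T : A ⥤ B) [T.Additive] {S : ShortComplex A} (hS : S.ShortExact)

include hS

/-- Dimension shifting. -/
theorem nonempty_shift (h : IsAcyc T S.X₂) (n : ℕ) (hn : 0 < n) :
    Nonempty ((T.rightDerived n).obj S.X₃ ≅ (T.rightDerived (n + 1)).obj S.X₁) := by
  obtain ⟨δ, hδ⟩ := (RDLES.exists_les T hS).2.2
  obtain ⟨w₁, w₂, e₁, e₂⟩ := hδ n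
  have m : Mono (δ n) := e₁.mono_g ((h n hn).eq_of_src _ _)
  have e : Epi (δ n) := e₂.epi_f ((h (n + 1) n.succ_pos).eq_of_tgt _ _)
  exact ⟨@asIso _ _ _ _ (δ n) (isIso_of_mono_of_epi _)⟩

/-- `R¹T` as a cokernel. -/
theorem nonempty_one [PreservesFiniteLimits T] (h : IsZero ((T.rightDerived 1).obj S.X₂)) :
    Nonempty (cokernel (T.map S.g) ≅ (T.rightDerived 1).obj S.X₁) := by
  obtain ⟨δ, hδ⟩ := (RDLES.exists_les T hS).2.2
  obtain ⟨w₁, w₂, e₁, e₂⟩ := hδ 0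
  have e : Epi (δ 0) := e₂.epi_f (h.eq_of_tgt _ _)
  have w : T.map S.g ≫ T.rightDerivedZeroIsoSelf.inv.app S.X₃ ≫ δ 0 = 0 := by
    have h1 : T.map S.g ≫ T.rightDerivedZeroIsoSelf.inv.app S.X₃ =
        T.rightDerivedZeroIsoSelf.inv.app S.X₂ ≫ (T.rightDerived 0).map S.g :=
      T.rightDerivedZeroIsoSelf.inv.naturality S.g
    rw [reassoc_of% h1, w₁, comp_zero]
  let φ : ShortComplex.mk _ _ w ⟶ ShortComplex.mk _ _ w₁ :=
    { τ₁ := T.rightDerivedZeroIsoSelf.inv.app S.X₂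
      τ₂ := T.rightDerivedZeroIsoSelf.inv.app S.X₃
      τ₃ := 𝟙 _
      comm₁₂ := (T.rightDerivedZeroIsoSelf.inv.naturality S.g).symm
      comm₂₃ := (Category.comp_id _).symm }
  have i1 : Epi φ.τ₁ := inferInstanceAs (Epi (T.rightDerivedZeroIsoSelf.inv.app S.X₂))
  have i2 : IsIso φ.τ₂ := inferInstanceAs (IsIso (T.rightDerivedZeroIsoSelf.inv.app S.X₃))
  have i3 : Mono φ.τ₃ := inferInstanceAs (Mono (𝟙 _))
  have ex := (ShortComplex.exact_iff_of_epi_of_isIso_of_mono φ).2 e₁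
  have i4 : Epi (ShortComplex.mk _ _ w).g :=
    inferInstanceAs (Epi (T.rightDerivedZeroIsoSelf.inv.app S.X₃ ≫ δ 0))
  exact ⟨(cokernelIsCokernel _).coconePointUniqueUpToIso ex.gIsCokernel⟩

end Shift

variable {A : Type u₁} {B : Type u₂} {A' : Type u₃} {B' : Type u₄}
  [Category.{v₁} A] [Category.{v₂} B] [Category.{v₃} A'] [Category.{v₄} B']
  [Abelian A] [Abelian B] [Abelian A'] [Abelian B'] [HasInjectiveResolutions A] [HasInjectiveResolutions A']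
  (T : A ⥤ B) (T' : A' ⥤ B') (P : A ⥤ A') (Q : B ⥤ B')
  [T.Additive] [T'.Additive] [P.Additive] [Q.Additive]
  [PreservesFiniteLimits T] [PreservesFiniteLimits T'] [PreservesFiniteLimits P] [PreservesFiniteColimits P]
  [PreservesFiniteColimits Q]
  (θ : T ⋙ Q ≅ P ⋙ T')

include θ in
/-- `Q (RⁿT G) ≅ RⁿT' (P G)`. -/
theorem nonempty_iso (h : ∀ I : A, Injective I → IsAcyc T' (P.obj I)) (n : ℕ) (G : A) :
    Nonempty (Q.obj ((T.rightDerived n).obj G) ≅ (T'.rightDerived n).obj (P.obj G)) := by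
  induction n generalizing G with
  | zero => exact ⟨Q.mapIso (T.rightDerivedZeroIsoSelf.app G) ≪≫ θ.app G ≪≫
      (T'.rightDerivedZeroIsoSelf.app (P.obj G)).symm⟩
  | succ n ih =>
    obtain ⟨S, hS, rfl, hI⟩ := exists_embedding G
    have hP : (S.map P).ShortExact := hS.map_of_exact P
    rcases Nat.eq_zero_or_pos n with rfl | hn
    · obtain ⟨e₁⟩ := nonempty_one T hS (isAcyc_injective T S.X₂ 1 one_pos)
      obtain ⟨e₂⟩ := nonempty_one T' hP (h S.X₂ hI 1 one_pos)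
      exact ⟨Q.mapIso e₁.symm ≪≫ PreservesCokernel.iso Q (T.map S.g) ≪≫
        cokernel.mapIso _ _ (θ.app S.X₂) (θ.app S.X₃) (θ.hom.naturality S.g) ≪≫ e₂⟩
    · obtain ⟨e₁⟩ := nonempty_shift T hS (isAcyc_injective T S.X₂) n hn
      obtain ⟨e₂⟩ := nonempty_shift T' hP (h S.X₂ hI) n hn
      obtain ⟨e⟩ := ih S.X₃
      exact ⟨Q.mapIso e₁.symm ≪≫ e ≪≫ e₂⟩

end Groth.Agent.Htor.H255.DimShift
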