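import Groth.Agent.PerfC.RHomD
import Groth.Agent.Dcoh.MonClosed
import Groth.Agent.Dcoh.TensSingle
import Groth.Agent.Dcoh.DerAdj
import Groth.Agent.Cohder.RDInt
import Groth.Agent.Dcoh.DerSch

/-!
# `H^p RHom(F[0], G[0])` is the right derived functor of the sheaf Hom

* `nonempty_hCSingle F : hC (F[0]) ≅ Hom(F, -)` termwise;
* `nonempty_ext`: `H^n (RH F[0] G[0]) ≅ ((homFunctor F).rightDerived n).obj G`.
-/

set_option autoImplicit false

universe u v₁ u₁

open CategoryTheory CategoryTheory.Limits AlgebraicGeometry MonoidalCategory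

attribute [local instance] HasDerivedCategory.standard

namespace Groth.Agent.Htor.H255.ExtRD

open Groth.Agent.Dcoh.CxFun Groth.Agent.Dcoh.KFlat Groth.Agent.PerfC.DBif Groth.Agent.PerfC.DTens
  Groth.Agent.PerfC.RHomEx Groth.Agent.PerfC.HomCx Groth.Agent.PerfC.IsoLocus
  Groth.Agent.PerfC.RHomD Groth.Agent.Dcoh.MonClosed
open scoped Groth.Agent.Dcoh.MonCat

section Abstract

/-- The adjunction on complexes for the tensor product with an object in degree zero. -/
theorem nonempty_adjSingle {C : Type u₁} [Category.{v₁} C] [Preadditive C] [HasZeroObject C]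
    (F : C ⥤ C ⥤ C) [F.Additive] [∀ (X₁ : C), (F.obj X₁).Additive]
    [∀ (K₁ : CochainComplex C ℤ) (K₂ : CochainComplex C ℤ), CochainComplex.HasMapBifunctor K₁ K₂ F]
    (B : C) (H : C ⥤ C) [H.Additive] (adj : F.flip.obj B ⊣ H)
    {G : CochainComplex C ℤ ⥤ CochainComplex C ℤ ⥤ CochainComplex C ℤ}
    (hG : G = F.map₂CochainComplex) :
    Nonempty (G.flip.obj ((HomologicalComplex.single C (ComplexShape.up ℤ) 0).obj B) ⊣
      H.mapHomologicalComplex (ComplexShape.up ℤ)) := by
  subst hG
  have : (F.flip.obj B).Additive := ⟨fun {M N f g} => by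
    change (F.map (f + g)).app B = _
    rw [F.map_add]
    rfl⟩
  exact ⟨(Groth.Agent.Dcoh.DerAdj.adjCx adj (ComplexShape.up ℤ)).ofNatIsoLeft
    (Groth.Agent.Dcoh.TensSingle.singleRightIso F B)⟩

end Abstract

variable {X : Scheme.{u}}

/-- `- ⊗ F ⊣ Hom(F, -)`, for the frozen bifunctor. -/
noncomputable def flipAdj (F : X.Modules) : (DCoh.tensorBi (X := X)).flip.obj F ⊣ homFunctor F :=
  tensorRightHomAdj F

instance additive_homFunctor (F : X.Modules) : (homFunctor F).Additive where
  map_add {_ _ _ _} := Groth.Agent.CohqB.HomSheaf.homMap_add _ _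

instance preservesLimits_homFunctor (F : X.Modules) : PreservesLimitsOfSize.{0, 0} (homFunctor F) :=
  (tensorHomAdj F).rightAdjoint_preservesLimits

instance preservesFiniteLimits_homFunctor (F : X.Modules) : PreservesFiniteLimits (homFunctor F) :=
  PreservesLimitsOfSize.preservesFiniteLimits.{0, 0} _

/-- `Hom(F[0], -)` is computed termwise. -/
theorem nonempty_hCSingle (F : X.Modules) :
    Nonempty (hC ((HomologicalComplex.single X.Modules (ComplexShape.up ℤ) 0).obj F) ≅
      (homFunctor F).mapHomologicalComplex (ComplexShape.up ℤ)) := by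
  obtain ⟨adj⟩ := nonempty_adjSingle DCoh.tensorBi F (homFunctor F) (flipAdj F) tensorCx_eq
  exact ⟨(hCAdj _).rightAdjointUniq adj⟩

/-- `RHom(F[0], I) = Hom(F, I)` for `I` K-injective. -/
theorem nonempty_rhSingle (F : X.Modules) (I : CochainComplex X.Modules ℤ) (hI : I.IsKInjective) :
    Nonempty ((RH (DerivedCategory.Q.obj
        ((HomologicalComplex.single X.Modules (ComplexShape.up ℤ) 0).obj F))).obj (DerivedCategory.Q.obj I) ≅
      DerivedCategory.Q.obj (((homFunctor F).mapHomologicalComplex (ComplexShape.up ℤ)).obj I)) := by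
  obtain ⟨e⟩ := nonempty_hCSingle F
  exact ⟨(toRHIso _ I hI).symm ≪≫ DerivedCategory.Q.mapIso (e.app I)⟩

/-- `H^n RHom(F, G)` is the `n`-th right derived functor of the sheaf Hom. -/
theorem nonempty_ext [HasInjectiveResolutions X.Modules] (F G : X.Modules) (n : ℕ) (m : ℤ) (hm : (n : ℤ) = m) :
    Nonempty ((DerivedCategory.homologyFunctor X.Modules m).obj ((RH (DerivedCategory.Q.obj
        ((HomologicalComplex.single X.Modules (ComplexShape.up ℤ) 0).obj F))).obj (DCoh.inD X G)) ≅
      ((homFunctor F).rightDerived n).obj G) := by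
  obtain ⟨I, f, hI, hf⟩ := Groth.Agent.PerfC.RHomEx.hasKInj X ((CochainComplex.singleFunctor X.Modules 0).obj G)
  have hf' : IsIso (DerivedCategory.Q.map f) := (DerivedCategory.isIso_Q_map_iff_quasiIso _ _).2 hf
  have := hI
  have := hf
  obtain ⟨e⟩ := nonempty_rhSingle F I hI
  let eG : DCoh.inD X G ≅ DerivedCategory.Q.obj I :=
    (DerivedCategory.singleFunctorIsoCompQ X.Modules 0).app G ≪≫ asIso (DerivedCategory.Q.map f)
  exact ⟨(DerivedCategory.homologyFunctor X.Modules m).mapIso ((RH _).mapIso eG ≪≫ e) ≪≫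
    (DerivedCategory.homologyFunctorFactors X.Modules m).app _ ≪≫
    (Groth.Agent.Cohder.RDInt.isoH (homFunctor F) f n m hm).symm⟩

end Groth.Agent.Htor.H255.ExtRD
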