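import Mathlib.Algebra.Module.FinitePresentation
import Mathlib.RingTheory.IsTensorProduct
import Mathlib.RingTheory.Flat.Basic

/-!
# Flat base change of `Hom` out of a finitely presented module, in terms of `IsBaseChange`
-/

set_option autoImplicit false
universe u

open TensorProduct

namespace Groth.Agent.Htor.H255.HomBC

variable {A B : Type u} [CommRing A] [CommRing B] [Algebra A B]
  {P P' N N' H H' : Type u} [AddCommGroup P] [AddCommGroup P'] [AddCommGroup N] [AddCommGroup N']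
  [AddCommGroup H] [AddCommGroup H'] [Module A P] [Module A N] [Module A H]
  [Module A P'] [Module B P'] [IsScalarTower A B P'] [Module A N'] [Module B N'] [IsScalarTower A B N']
  [Module A H'] [Module B H'] [IsScalarTower A B H']

/-- Flat base change of `Hom(P, N)`, `P` finitely presented. -/
theorem bijective_of_baseChange [Module.Flat A B] [Module.FinitePresentation A P]
    (cP : P →ₗ[A] P') (hP : IsBaseChange B cP) (cN : N →ₗ[A] N') (hN : IsBaseChange B cN)
    (cH : H →ₗ[A] H') (hH : IsBaseChange B cH) (e : H ≃ₗ[A] (P →ₗ[A] N))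
    (t : H' →ₗ[B] (P' →ₗ[B] N')) (ht : ∀ h p, t (cH h) (cP p) = cN (e h p)) : Function.Bijective t := by
  have hb := Module.FinitePresentation.isBaseChange_map A P N B
  let e₁ : B ⊗[A] H ≃ₗ[B] B ⊗[A] (P →ₗ[A] N) := e.baseChange A B H (P →ₗ[A] N)
  let e₂ : B ⊗[A] (P →ₗ[A] N) ≃ₗ[B] (B ⊗[A] P →ₗ[B] B ⊗[A] N) := hb.equiv
  let e₃ : (B ⊗[A] P →ₗ[B] B ⊗[A] N) ≃ₗ[B] (P' →ₗ[B] N') := LinearEquiv.arrowCongr hP.equiv hN.equiv
  let E : H' ≃ₗ[B] (P' →ₗ[B] N') := hH.equiv.symm ≪≫ₗ e₁ ≪≫ₗ e₂ ≪≫ₗ e₃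
  have key : t = E.toLinearMap := by
    apply hH.algHom_ext
    intro h
    apply hP.algHom_ext
    intro p
    rw [ht]
    have h1 : hH.equiv.symm (cH h) = 1 ⊗ₜ[A] h := by
      rw [LinearEquiv.symm_apply_eq, hH.equiv_tmul, one_smul]
    have h2 : hP.equiv.symm (cP p) = 1 ⊗ₜ[A] p := by
      rw [LinearEquiv.symm_apply_eq, hP.equiv_tmul, one_smul]
    change _ = e₃ (e₂ (e₁ (hH.equiv.symm (cH h)))) (cP p)
    rw [h1]
    have h3 : e₁ (1 ⊗ₜ[A] h) = 1 ⊗ₜ[A] (e h) := rfl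
    have h4 : e₂ (1 ⊗ₜ[A] (e h)) = (e h).baseChange B := by
      change hb.equiv (1 ⊗ₜ[A] (e h)) = _
      rw [hb.equiv_tmul, one_smul]
      rfl
    rw [h3, h4]
    change _ = hN.equiv ((e h).baseChange B (hP.equiv.symm (cP p)))
    rw [h2, LinearMap.baseChange_tmul, hN.equiv_tmul, one_smul]
  rw [key]
  exact E.bijective

end Groth.Agent.Htor.H255.HomBC
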