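import Groth.Agent.CohqB.HomSheafQCoh
import Groth.Agent.CohqB.HomSheafMap
import Groth.Agent.CycB.StalkExact
import Groth.Agent.Fdesc.QCohStalk
import Groth.Agent.Dcoh.StalkP
import Mathlib.Algebra.Module.FinitePresentation

/-!
# Stalks of the internal Hom

* `homStalk M N x : (homSheaf M N)_x →ₗ (M_x →ₗ N_x)`, with `homStalk_germ`;
* `bijective_homStalk`: it is bijective if `M` is quasi-coherent and its sections over some affine open neighbourhood
  of `x` are a finitely presented module (no assumption on `N`).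
-/

set_option autoImplicit false
universe u

open CategoryTheory CategoryTheory.Limits AlgebraicGeometry Opposite TopologicalSpace

namespace Groth.Agent.Htor.H255.HomStalk

open Groth.Agent.CohqB.HomSheaf Groth.Agent.CycB.StalkExact

variable {X : Scheme.{u}}

section Desc

variable {M : X.Modules} {x : X} {P : Type u} [AddCommGroup P] [Module (X.presheaf.stalk x) P]

/-- Linear maps out of the stalk of an `O_X`-module. -/
noncomputable def desc (φ : ∀ (U : X.Opens), x ∈ U → (Γ(M, U) →+ P))
    (h : ∀ (U V : X.Opens) (i : V ≤ U) (hx : x ∈ V) (m : Γ(M, U)),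
      φ V hx (M.presheaf.map (homOfLE i).op m) = φ U (i hx) m)
    (hsmul : ∀ (U : X.Opens) (hx : x ∈ U) (r : Γ(X, U)) (m : Γ(M, U)),
      φ U hx (r • m) = X.presheaf.germ U x hx r • φ U hx m) :
    M.presheaf.stalk x →ₗ[X.presheaf.stalk x] P :=
  Dcoh.StalkP.descLin (R := X.presheaf) (M := M.val) φ (fun U V i hx m => h V U i.le hx m) hsmul

theorem desc_germ (φ : ∀ (U : X.Opens), x ∈ U → (Γ(M, U) →+ P))
    (h : ∀ (U V : X.Opens) (i : V ≤ U) (hx : x ∈ V) (m : Γ(M, U)),
      φ V hx (M.presheaf.map (homOfLE i).op m) = φ U (i hx) m)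
    (hsmul : ∀ (U : X.Opens) (hx : x ∈ U) (r : Γ(X, U)) (m : Γ(M, U)),
      φ U hx (r • m) = X.presheaf.germ U x hx r • φ U hx m) (U : X.Opens) (hx : x ∈ U) (m : Γ(M, U)) :
    desc φ h hsmul (M.presheaf.germ U x hx m) = φ U hx m :=
  Dcoh.StalkP.descLin_germ (R := X.presheaf) (M := M.val) φ (fun U V i hx m => h V U i.le hx m) hsmul U hx m

end Desc

variable {M N : X.Modules}

theorem germ_map (M : X.Modules) {U V : X.Opens} (i : V ≤ U) (x : X) (hx : x ∈ V) (m : Γ(M, U)) :
    M.presheaf.germ V x hx (M.presheaf.map (homOfLE i).op m) = M.presheaf.germ U x (i hx) m :=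
  TopCat.Presheaf.germ_res_apply M.presheaf (homOfLE i) x hx m

/-- The map on stalks attached to a section of the internal Hom. -/
noncomputable def secStalk (x : X) {U : X.Opens} (hx : x ∈ U) (s : Γ(homSheaf M N, U)) :
    M.presheaf.stalk x →ₗ[X.presheaf.stalk x] N.presheaf.stalk x :=
  desc (fun V hV => (N.presheaf.germ (V ⊓ U) x (Opens.mem_inf.2 ⟨hV, hx⟩)).hom.comp
      ((comp s (V ⊓ U) inf_le_right).toAddMonoidHom.comp (M.presheaf.map (homOfLE inf_le_left).op).hom))
    (fun V W i hW m => by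
      change N.presheaf.germ (W ⊓ U) x (Opens.mem_inf.2 ⟨hW, hx⟩) (comp s (W ⊓ U) inf_le_right
        (M.presheaf.map (homOfLE inf_le_left).op (M.presheaf.map (homOfLE i).op m))) =
        N.presheaf.germ (V ⊓ U) x (Opens.mem_inf.2 ⟨i hW, hx⟩) (comp s (V ⊓ U) inf_le_right
        (M.presheaf.map (homOfLE inf_le_left).op m))
      rw [res_res, ← germ_map N (inf_le_inf_right U i) x (Opens.mem_inf.2 ⟨hW, hx⟩), ← comp_map, res_res])
    (fun V hV r m => by
      change N.presheaf.germ (V ⊓ U) x (Opens.mem_inf.2 ⟨hV, hx⟩) (comp s (V ⊓ U) inf_le_right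
        (M.presheaf.map (homOfLE inf_le_left).op (r • m))) = _
      rw [Scheme.Modules.map_smul, map_smul, germ_smul]
      congr 1
      exact TopCat.Presheaf.germ_res_apply X.presheaf _ x _ r)

theorem secStalk_germ (x : X) {U : X.Opens} (hx : x ∈ U) (s : Γ(homSheaf M N, U)) (V : X.Opens) (hV : x ∈ V)
    (m : Γ(M, V)) : secStalk x hx s (M.presheaf.germ V x hV m) =
      N.presheaf.germ (V ⊓ U) x (Opens.mem_inf.2 ⟨hV, hx⟩) (comp s (V ⊓ U) inf_le_right
        (M.presheaf.map (homOfLE inf_le_left).op m)) :=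
  desc_germ _ _ _ V hV m

theorem secStalk_germ_le (x : X) {U : X.Opens} (hx : x ∈ U) (s : Γ(homSheaf M N, U)) (V : X.Opens) (hV : x ∈ V)
    (h : V ≤ U) (m : Γ(M, V)) : secStalk x hx s (M.presheaf.germ V x hV m) =
      N.presheaf.germ V x hV (comp s V h m) := by
  rw [secStalk_germ, ← germ_map N (show V ⊓ U ≤ V from inf_le_left) x (Opens.mem_inf.2 ⟨hV, hx⟩), ← comp_map]

variable (M N)

/-- The canonical map `(Hom(M, N))_x → Hom(M_x, N_x)`. -/
noncomputable def homStalk (x : X) : (homSheaf M N).presheaf.stalk x →ₗ[X.presheaf.stalk x]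
    (M.presheaf.stalk x →ₗ[X.presheaf.stalk x] N.presheaf.stalk x) :=
  desc (fun U hx =>
    { toFun := secStalk x hx
      map_zero' := by
        ext m
        obtain ⟨V, hV, m, rfl⟩ := M.presheaf.exists_germ_eq m
        rw [secStalk_germ, comp_zero]
        exact map_zero _
      map_add' := fun s t => by
        ext m
        obtain ⟨V, hV, m, rfl⟩ := M.presheaf.exists_germ_eq m
        rw [LinearMap.add_apply, secStalk_germ, secStalk_germ, secStalk_germ, comp_add]
        exact map_add _ _ _ })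
    (fun U V i hx s => by
      ext m
      obtain ⟨W, hW, m, rfl⟩ := M.presheaf.exists_germ_eq m
      have e : M.presheaf.germ W x hW m = M.presheaf.germ (W ⊓ V) x (Opens.mem_inf.2 ⟨hW, hx⟩)
        (M.presheaf.map (homOfLE inf_le_left).op m) :=
        (germ_map M inf_le_left x (Opens.mem_inf.2 ⟨hW, hx⟩) m).symm
      change secStalk x hx ((homSheaf M N).presheaf.map (homOfLE i).op s) (M.presheaf.germ W x hW m) =
        secStalk x (i hx) s (M.presheaf.germ W x hW m)
      rw [e, secStalk_germ_le x hx _ _ _ inf_le_right, secStalk_germ_le x (i hx) _ _ _ (inf_le_right.trans i),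
        comp_res])
    (fun U hx r s => by
      ext m
      obtain ⟨V, hV, m, rfl⟩ := M.presheaf.exists_germ_eq m
      change secStalk x hx (r • s) (M.presheaf.germ V x hV m) =
        X.presheaf.germ U x hx r • secStalk x hx s (M.presheaf.germ V x hV m)
      rw [secStalk_germ, secStalk_germ, comp_smul, LinearMap.smul_apply, germ_smul]
      congr 1
      exact TopCat.Presheaf.germ_res_apply X.presheaf _ x _ r)

variable {M N}

theorem homStalk_germ (x : X) {U : X.Opens} (hx : x ∈ U) (s : Γ(homSheaf M N, U)) :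
    homStalk M N x ((homSheaf M N).presheaf.germ U x hx s) = secStalk x hx s :=
  desc_germ _ _ _ U hx s

theorem homStalk_germ_germ (x : X) {U : X.Opens} (hx : x ∈ U) (s : Γ(homSheaf M N, U)) (V : X.Opens) (hV : x ∈ V)
    (h : V ≤ U) (m : Γ(M, V)) :
    homStalk M N x ((homSheaf M N).presheaf.germ U x hx s) (M.presheaf.germ V x hV m) =
      N.presheaf.germ V x hV (comp s V h m) := by
  rw [homStalk_germ, secStalk_germ_le x hx s V hV h]

end Groth.Agent.Htor.H255.HomStalk
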