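import Groth.Agent.PerfC.RHomPc175
import Groth.Agent.PerfC.PullRestrict
import Groth.Agent.PerfC.LpullFlat
import Groth.Agent.PerfC.LpullTens
import Groth.Agent.PerfC.FlatExact
import Groth.Agent.Dcoh.MonLpull182
import Groth.Agent.Dcoh.MonPull2_292

/-!
# `f^* RHom(K, L)` and `RHom(f^* K, f^* L)` have locally isomorphic cohomology sheaves

`f` flat, `K` pseudo-coherent, `L` bounded below.
-/

set_option autoImplicit false

universe u

open CategoryTheory CategoryTheory.Limits AlgebraicGeometry MonoidalCategory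

attribute [local instance] HasDerivedCategory.standard

namespace Groth.Agent.Htor.H255.LocalIso

open Groth.Agent.PerfC.DBif Groth.Agent.PerfC.DTens Groth.Agent.PerfC.RHomD
  Groth.Agent.PerfC.IsoLocus Groth.Agent.PerfA.CohomIn Groth.Agent.Dcoh.LocalFree
  Groth.Agent.PerfC.RHomPc175 Groth.Agent.PerfC.PullRestrict
open scoped Groth.Agent.Dcoh.MonCat Groth.Agent.Dcoh.ModD Groth.Agent.Dcoh.MonPull

variable {X Y : Scheme.{u}} (f : X ⟶ Y) [PreservesFiniteLimits (Scheme.Modules.pullback f)]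

/-- `f^*` commutes with the derived tensor product. -/
theorem nonempty_tens (K L : DCoh.D Y) : Nonempty ((pullD f).obj (((LTX Y).obj K).obj L) ≅
    ((LTX X).obj ((pullD f).obj K)).obj ((pullD f).obj L)) := by
  have := Groth.Agent.PerfC.LpullFlat.hasLpull f
  let e := Groth.Agent.PerfC.LpullFlat.lpullIso f
  exact ⟨(e.app _).symm ≪≫ ((Groth.Agent.PerfC.LpullTens.lpullTens f).app K).app L ≪≫
    ((LTX X).mapIso (e.app K)).app _ ≪≫ ((LTX X).obj _).mapIso (e.app L)⟩

/-- `f^*` preserves duals. -/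
theorem nonempty_pairing {K K' : DCoh.D Y} (h : ExactPairing K K') :
    Nonempty (ExactPairing ((pullD f).obj K) ((pullD f).obj K')) := by
  have := Groth.Agent.PerfC.LpullFlat.hasLpull f
  let e := Groth.Agent.PerfC.LpullFlat.lpullIso f
  let m := Groth.Agent.Dcoh.MonLpull182.lpullMonoidal f
  let h' := Groth.Agent.Dcoh.DualMap.mapPairing (DCoh.Lpull f) K K'
  exact ⟨exactPairingCongr (e.app K).symm (e.app K').symm⟩

/-- `f^* RHom(K, L) ≅ RHom(f^* K, f^* L)` for `K` a bounded complex of finite free modules. -/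
theorem nonempty_rh_of_freePerf {K : DCoh.D Y} (hK : FreePerf Y K) (L : DCoh.D Y) :
    Nonempty ((pullD f).obj ((RH K).obj L) ≅ (RH ((pullD f).obj K)).obj ((pullD f).obj L)) := by
  obtain ⟨K', ⟨h⟩, -⟩ := Groth.Agent.Dcoh.DualX.exists_pairing_of_freePerf hK
  obtain ⟨h'⟩ := nonempty_pairing f h
  obtain ⟨e⟩ := nonempty_tens f L K'
  exact ⟨(pullD f).mapIso (rhPairing h L) ≪≫ e ≪≫ (rhPairing h' _).symm⟩

/-- Approximation: `H^i RHom(K, L) ≅ H^i RHom(F, L)` if `F ⟶ K` has cone in degrees `≤ m - 1`. -/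
theorem isIso_rho {X : Scheme.{u}} {T : Pretriangulated.Triangle (DCoh.D X)} (hT : T ∈ distTriang (DCoh.D X))
    (L : DCoh.D X) (a i m : ℤ) (hm : i + m < a) [L.IsGE a] (hC : T.obj₃.IsLE (m - 1)) :
    Nonempty ((DerivedCategory.homologyFunctor _ i).obj ((RH T.obj₂).obj L) ≅
      (DerivedCategory.homologyFunctor _ i).obj ((RH T.obj₁).obj L)) := by
  have hC' : (T.obj₃⟦(-1 : ℤ)⟧).IsLE m :=
    DerivedCategory.TStructure.t.isLE_shift T.obj₃ (m - 1) (-1) m (by lia)
  have b1 := Groth.Agent.PerfC.RHomBnd556.isGE_RH T.obj₃ L a (m - 1)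
  have b2 := Groth.Agent.PerfC.RHomBnd556.isGE_RH (T.obj₃⟦(-1 : ℤ)⟧) L a m
  have key := Groth.Agent.PerfC.RHomTri.isIso_homology_ρ (LTX X).flip RH rhAdj
    (fun M => isTriang_LTX_obj M) additive_LTX_flip L T hT i
    (DerivedCategory.isZero_of_isGE ((RH T.obj₃).obj L) (a - (m - 1)) i (by lia))
    (DerivedCategory.isZero_of_isGE ((RH (T.obj₃⟦(-1 : ℤ)⟧)).obj L) (a - m) i (by lia))
  exact ⟨@asIso _ _ _ _ ((DerivedCategory.homologyFunctor _ i).map
    (Groth.Agent.PerfC.RHomTri.ρ (LTX X).flip RH rhAdj T.mor₁ L)) key⟩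

/-- `f^* H^i RHom(K, L) ≅ H^i RHom(f^* K, f^* L)` if `K` is approximated by a finite free complex. -/
theorem nonempty_homology_of_freePC {K L : DCoh.D Y} (a i m : ℤ) (hm : i + m < a) [L.IsGE a] (hK : FreePC m Y K) :
    Nonempty ((Scheme.Modules.pullback f).obj ((DerivedCategory.homologyFunctor _ i).obj ((RH K).obj L)) ≅
      (DerivedCategory.homologyFunctor _ i).obj ((RH ((pullD f).obj K)).obj ((pullD f).obj L))) := by
  obtain ⟨F, α, hF, h1, h2⟩ := hK
  obtain ⟨C, g, h, hT⟩ := Pretriangulated.distinguished_cocone_triangle α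
  have hC : C.IsLE (m - 1) := isLE_obj₃ _ hT m h1 h2
  have hT' := (pullD f).map_distinguished _ hT
  have hC' : ((pullD f).obj C).IsLE (m - 1) :=
    Groth.Agent.PerfA.ExactD.isLE_map (Scheme.Modules.pullback f) C (m - 1)
  have hL' : ((pullD f).obj L).IsGE a := Groth.Agent.PerfA.ExactD.isGE_map (Scheme.Modules.pullback f) L a
  obtain ⟨e₁⟩ := isIso_rho hT L a i m hm hC
  obtain ⟨e₂⟩ := isIso_rho hT' ((pullD f).obj L) a i m hm hC'
  obtain ⟨e⟩ := nonempty_rh_of_freePerf f hF L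
  exact ⟨(Scheme.Modules.pullback f).mapIso e₁ ≪≫ (HDpull f _ i).symm ≪≫
    (DerivedCategory.homologyFunctor _ i).mapIso e ≪≫ e₂.symm⟩

/-- `f^* H^i RHom(K, L)` and `H^i RHom(f^* K, f^* L)` are locally isomorphic if `f` is flat, `K` is pseudo-coherent
and `L` is bounded below. -/
theorem exists_nonempty_restrict (f : X ⟶ Y) [Flat f] (K L : DCoh.D Y)
    (hK : ∀ m : ℤ, DCoh.IsPseudoCoherentD m K) (a i : ℤ) [L.IsGE a] (x : X) :
    haveI := Groth.Agent.PerfC.FlatExact.preservesFiniteLimits_pullback f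
    ∃ V : X.Opens, x ∈ V ∧
      Nonempty (((Scheme.Modules.pullback f).obj ((DerivedCategory.homologyFunctor _ i).obj ((RH K).obj L))).restrict
        V.ι ≅ ((DerivedCategory.homologyFunctor _ i).obj
          ((RH ((pullD f).obj K)).obj ((pullD f).obj L))).restrict V.ι) := by
  have := Groth.Agent.PerfC.FlatExact.preservesFiniteLimits_pullback f
  obtain ⟨V, hx, hV⟩ := locally_freePC (a - i - 1) (hK _) (f x)
  have := Groth.Agent.PerfC.FlatExact.preservesFiniteLimits_pullback (f ∣_ V)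
  have hL' : ((DCoh.restrictD V.ι).obj L).IsGE a :=
    Groth.Agent.PerfA.ExactD.isGE_map (Scheme.Modules.restrictFunctor V.ι) L a
  obtain ⟨e⟩ := nonempty_homology_of_freePC (f ∣_ V) a i (a - i - 1) (by lia) hV
    (L := (DCoh.restrictD V.ι).obj L)
  obtain ⟨r⟩ := nonempty_rhRes V.ι K L
  obtain ⟨r'⟩ := nonempty_rhRes (f ⁻¹ᵁ V).ι ((pullD f).obj K) ((pullD f).obj L)
  let s := pullDSquare (morphismRestrict_ι f V).symm
  refine ⟨f ⁻¹ᵁ V, hx, ⟨?_⟩⟩
  exact (pullbackSquare (morphismRestrict_ι f V).symm).symm.app _ ≪≫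
    (Scheme.Modules.pullback (f ∣_ V)).mapIso ((Groth.Agent.Dcoh.LocalD.HDRestrict V.ι _ i).symm ≪≫
      (DerivedCategory.homologyFunctor _ i).mapIso r) ≪≫ e ≪≫
    (DerivedCategory.homologyFunctor _ i).mapIso
      (rhIso (s.app K).symm _ ≪≫ (RH _).mapIso (s.app L) ≪≫ r'.symm) ≪≫
    Groth.Agent.Dcoh.LocalD.HDRestrict (f ⁻¹ᵁ V).ι _ i

end Groth.Agent.Htor.H255.LocalIso
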