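import Groth.Agent.Htor.H255.ThetaIso
import Groth.Agent.Htor.H255.ExtRD
import Groth.Agent.Htor.H255.LocalIso
import Groth.Agent.Htor.H255.DimShift
import Groth.Agent.PerfB.PCNoeth

/-!
# Flat pullback of the sheaves `Ext^p(F, G)`, `F` coherent on a locally Noetherian scheme
-/

set_option autoImplicit false

universe u

open CategoryTheory CategoryTheory.Limits AlgebraicGeometry MonoidalCategory

attribute [local instance] HasDerivedCategory.standard

namespace Groth.Agent.Htor.H255.PullExt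

open Groth.Agent.PerfC.RHomD Groth.Agent.Dcoh.MonClosed Groth.Agent.PerfC.PullRestrict
  Groth.Agent.Htor.H255.ExtRD Groth.Agent.Htor.H255.LocalIso Groth.Agent.Htor.H255.ThetaIso
  Groth.Agent.Htor.H255.DimShift
open scoped Groth.Agent.Dcoh.MonCat

variable {X Y : Scheme.{u}}

/-- `F[0]` as a complex. -/
noncomputable abbrev sg (F : Y.Modules) : CochainComplex Y.Modules ℤ :=
  (HomologicalComplex.single Y.Modules (ComplexShape.up ℤ) 0).obj F

noncomputable def inDIso (F : Y.Modules) : DCoh.inD Y F ≅ DerivedCategory.Q.obj (sg F) :=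
  (DerivedCategory.singleFunctorIsoCompQ Y.Modules 0).app F

/-- `f^*(F[0]) = (f^* F)[0]`. -/
noncomputable def pullSg (f : X ⟶ Y) [PreservesFiniteLimits (Scheme.Modules.pullback f)] (F : Y.Modules) :
    (pullD f).obj (DerivedCategory.Q.obj (sg F)) ≅
      DerivedCategory.Q.obj (sg ((Scheme.Modules.pullback f).obj F)) :=
  pullDQ f (sg F) ≪≫ DerivedCategory.Q.mapIso
    ((HomologicalComplex.singleMapHomologicalComplex (Scheme.Modules.pullback f) (ComplexShape.up ℤ) 0).app F)

/-- `F[0]` is pseudo-coherent for `F` coherent. -/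
theorem pc_sg [IsLocallyNoetherian Y] {F : Y.Modules} (hF : Coh.IsCoh F) (m : ℤ) :
    DCoh.IsPseudoCoherentD m (DerivedCategory.Q.obj (sg F)) := by
  have h1 : (DerivedCategory.Q.obj (sg F) : DCoh.D Y).IsLE 0 :=
    ⟨(DerivedCategory.TStructure.t.isLE_of_iso (inDIso F) 0).le⟩
  refine Groth.Agent.PerfB.PCNoeth.pc_of_isCoh (0 - m + 1).toNat _ 0 m h1 (by omega) fun i _ => ?_
  have e : DCoh.HD (DerivedCategory.Q.obj (sg F)) i ≅ (sg F).homology i :=
    (DerivedCategory.homologyFunctorFactors Y.Modules i).app (sg F)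
  refine Groth.Agent.PerfA.CohSerre.isCoh_of_iso e.symm ?_
  by_cases hi : i = 0
  · subst hi
    exact Groth.Agent.PerfA.CohSerre.isCoh_of_iso
      ((HomologicalComplex.homologyFunctorSingleIso Y.Modules (ComplexShape.up ℤ) 0).symm.app F) hF
  · have hz : IsZero ((sg F).homology i) := by
      rw [← HomologicalComplex.exactAt_iff_isZero_homology]
      exact HomologicalComplex.exactAt_single_obj _ 0 F i hi
    exact (Groth.Agent.PerfA.CohSerre.cohp Y).prop_of_isZero hz

/-- `Ext^p(f^* F, f^* I) = 0` for `p > 0` if `I` is injective. -/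
theorem isAcyc (f : X ⟶ Y) [Flat f] [IsLocallyNoetherian Y] [HasInjectiveResolutions X.Modules]
    [HasInjectiveResolutions Y.Modules] {F : Y.Modules} (hF : Coh.IsCoh F) (I : Y.Modules) [Injective I] :
    Groth.Agent.Cohder.RDAcyc.IsAcyc (homFunctor ((Scheme.Modules.pullback f).obj F))
      ((Scheme.Modules.pullback f).obj I) := by
  intro n hn
  have := Groth.Agent.PerfC.FlatExact.preservesFiniteLimits_pullback f
  obtain ⟨e₁⟩ := nonempty_ext F I n n rfl
  obtain ⟨e₂⟩ := nonempty_ext ((Scheme.Modules.pullback f).obj F) ((Scheme.Modules.pullback f).obj I) n n rfl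
  have hz : IsZero ((DerivedCategory.homologyFunctor Y.Modules n).obj
      ((RH (DerivedCategory.Q.obj (sg F))).obj (DCoh.inD Y I))) :=
    (Groth.Agent.Cohder.RDAcyc.isAcyc_injective (homFunctor F) I n hn).of_iso e₁
  let eI : (pullD f).obj (DCoh.inD Y I) ≅ DCoh.inD X ((Scheme.Modules.pullback f).obj I) :=
    (pullD f).mapIso (inDIso I) ≪≫ pullSg f I ≪≫ (inDIso _).symm
  let e₃ : (RH ((pullD f).obj (DerivedCategory.Q.obj (sg F)))).obj ((pullD f).obj (DCoh.inD Y I)) ≅
      (RH (DerivedCategory.Q.obj (sg ((Scheme.Modules.pullback f).obj F)))).obj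
        (DCoh.inD X ((Scheme.Modules.pullback f).obj I)) :=
    (RH _).mapIso eI ≪≫ rhIso (pullSg f F).symm _
  have key : IsZero ((DerivedCategory.homologyFunctor X.Modules n).obj
      ((RH ((pullD f).obj (DerivedCategory.Q.obj (sg F)))).obj ((pullD f).obj (DCoh.inD Y I)))) := by
    refine Groth.Agent.PerfA.Restrict.isZero_of_restrict_opens _ fun x => ?_
    have h0 : (DCoh.inD Y I).IsGE 0 := inferInstance
    obtain ⟨V, hx, ⟨e⟩⟩ := exists_nonempty_restrict f (DerivedCategory.Q.obj (sg F)) (DCoh.inD Y I)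
      (fun m => pc_sg hF m) 0 n x
    exact ⟨V, hx, IsZero.of_iso (Functor.map_isZero (Scheme.Modules.restrictFunctor V.ι)
      (Functor.map_isZero _ hz)) e.symm⟩
  exact (key.of_iso ((DerivedCategory.homologyFunctor X.Modules n).mapIso e₃).symm).of_iso e₂.symm

/-- `f^* Ext^p(F, G) ≅ Ext^p(f^* F, f^* G)`. -/
theorem nonempty_pull_rightDerived (f : X ⟶ Y) [Flat f] [IsLocallyNoetherian Y] [HasInjectiveResolutions X.Modules]
    [HasInjectiveResolutions Y.Modules] {F : Y.Modules} (hF : Coh.IsCoh F) (G : Y.Modules) (n : ℕ) :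
    Nonempty ((Scheme.Modules.pullback f).obj (((homFunctor F).rightDerived n).obj G) ≅
      ((homFunctor ((Scheme.Modules.pullback f).obj F)).rightDerived n).obj
        ((Scheme.Modules.pullback f).obj G)) := by
  have := Groth.Agent.PerfC.FlatExact.preservesFiniteLimits_pullback f
  exact nonempty_iso (homFunctor F) (homFunctor ((Scheme.Modules.pullback f).obj F)) (Scheme.Modules.pullback f)
    (Scheme.Modules.pullback f) (thetaIso f F hF.1 (isFP_of_isCoh hF)) (fun I _ => isAcyc f hF I) n G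

theorem isZero_neg (F G : X.Modules) (p : ℤ) (hp : p < 0) :
    IsZero ((DerivedCategory.homologyFunctor X.Modules p).obj
      ((RH (DerivedCategory.Q.obj (sg F))).obj (DCoh.inD X G))) := by
  have h1 : (DerivedCategory.Q.obj (sg F) : DCoh.D X).IsLE 0 :=
    ⟨(DerivedCategory.TStructure.t.isLE_of_iso (inDIso F) 0).le⟩
  have h0 : (DCoh.inD X G).IsGE 0 := inferInstance
  have h2 := Groth.Agent.PerfC.RHomBnd556.isGE_RH (DerivedCategory.Q.obj (sg F)) (DCoh.inD X G) 0 0
  exact DerivedCategory.isZero_of_isGE _ (0 - 0) p (by omega)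

/-- The statement for `RH`. -/
theorem nonempty_pull (f : X ⟶ Y) [Flat f] [IsLocallyNoetherian Y] {F : Y.Modules} (hF : Coh.IsCoh F)
    (G : Y.Modules) (p : ℤ) :
    Nonempty ((Scheme.Modules.pullback f).obj ((DerivedCategory.homologyFunctor Y.Modules p).obj
        ((RH (DerivedCategory.Q.obj (sg F))).obj (DCoh.inD Y G))) ≅
      (DerivedCategory.homologyFunctor X.Modules p).obj
        ((RH (DerivedCategory.Q.obj (sg ((Scheme.Modules.pullback f).obj F)))).obj
          (DCoh.inD X ((Scheme.Modules.pullback f).obj G)))) := by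
  have := Groth.Agent.Dcoh.DerSch.hasInjectiveResolutions X
  have := Groth.Agent.Dcoh.DerSch.hasInjectiveResolutions Y
  rcases lt_or_ge p 0 with hp | hp
  · exact ⟨(Functor.map_isZero _ (isZero_neg F G p hp)).iso (isZero_neg _ _ p hp)⟩
  · obtain ⟨n, rfl⟩ := Int.eq_ofNat_of_zero_le hp
    obtain ⟨e₁⟩ := nonempty_ext F G n n rfl
    obtain ⟨e₂⟩ := nonempty_ext ((Scheme.Modules.pullback f).obj F) ((Scheme.Modules.pullback f).obj G) n n rfl
    obtain ⟨e⟩ := nonempty_pull_rightDerived f hF G n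
    exact ⟨(Scheme.Modules.pullback f).mapIso e₁ ≪≫ e ≪≫ e₂.symm⟩

end Groth.Agent.Htor.H255.PullExt
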