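import Groth.Agent.Htor.H255.HomStalk

/-!
# `(Hom(M, N))_x = Hom(M_x, N_x)` for `M` of finite presentation near `x`
-/

set_option autoImplicit false
universe u

open CategoryTheory CategoryTheory.Limits AlgebraicGeometry Opposite TopologicalSpace

namespace Groth.Agent.Htor.H255.StalkBij

open Groth.Agent.CohqB.HomSheaf Groth.Agent.CycB.StalkExact Groth.Agent.Htor.H255.HomStalk
open Groth.Agent.Fdesc.QCohStalk (resModule resₗ germₗ stalkModule isLocalizedModule_res isLocalizedModule_germ)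

variable {X : Scheme.{u}} {M N : X.Modules} {U : X.Opens}

/-- A linear map from the sections over an affine open `U` to the sections over `D(g)` comes from a section of the
internal Hom over `D(g)`. -/
theorem exists_section (hM : Coh.IsQCoh M) (hU : IsAffineOpen U) (g : Γ(X, U))
    (ψ : Γ(M, U) →+ Γ(N, X.basicOpen g))
    (hψ : ∀ (r : Γ(X, U)) m, ψ (r • m) = X.presheaf.map (homOfLE (X.basicOpen_le g)).op r • ψ m) :
    ∃ s : Γ(homSheaf M N, X.basicOpen g), ∀ m : Γ(M, U),
      comp s (X.basicOpen g) le_rfl (M.presheaf.map (homOfLE (X.basicOpen_le g)).op m) = ψ m := by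
  let i1 : Algebra Γ(X, U) Γ(X, X.basicOpen g) := (X.presheaf.map (homOfLE (X.basicOpen_le g)).op).hom.toAlgebra
  have i2 : IsLocalization.Away g Γ(X, X.basicOpen g) := hU.isLocalization_basicOpen g
  let i3 : Module Γ(X, U) Γ(M, X.basicOpen g) := resModule M (X.basicOpen_le g)
  let i4 : Module Γ(X, U) Γ(N, X.basicOpen g) := resModule N (X.basicOpen_le g)
  have i5 : IsScalarTower Γ(X, U) Γ(X, X.basicOpen g) Γ(M, X.basicOpen g) :=
    IsScalarTower.of_algebraMap_smul fun _ _ => rfl
  have i6 : IsScalarTower Γ(X, U) Γ(X, X.basicOpen g) Γ(N, X.basicOpen g) :=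
    IsScalarTower.of_algebraMap_smul fun _ _ => rfl
  have i7 : IsLocalizedModule (.powers g) (resₗ M (X.basicOpen_le g)) := isLocalizedModule_res M hU hM g
  let ψ' : Γ(M, U) →ₗ[Γ(X, U)] Γ(N, X.basicOpen g) := { toFun := ψ, map_add' := map_add ψ, map_smul' := hψ }
  have hunit : ∀ x : Submonoid.powers g, IsUnit (algebraMap Γ(X, U) (Module.End Γ(X, U) Γ(N, X.basicOpen g)) x) := by
    intro x
    have h1 : IsUnit (algebraMap Γ(X, U) Γ(X, X.basicOpen g) x) := IsLocalization.map_units _ x
    have h2 : IsUnit (algebraMap Γ(X, X.basicOpen g) (Module.End Γ(X, X.basicOpen g) Γ(N, X.basicOpen g))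
      (algebraMap Γ(X, U) Γ(X, X.basicOpen g) x)) := h1.map _
    rw [Module.End.isUnit_iff] at h2 ⊢
    exact h2
  let φ₀ := IsLocalizedModule.lift (.powers g) (resₗ M (X.basicOpen_le g)) ψ' hunit
  let φ : Γ(M, X.basicOpen g) →ₗ[Γ(X, X.basicOpen g)] Γ(N, X.basicOpen g) :=
    LinearMap.extendScalarsOfIsLocalization (.powers g) Γ(X, X.basicOpen g) φ₀
  refine ⟨(affineEquiv hM (hU.basicOpen g)).symm φ, fun m => ?_⟩
  rw [comp_affineEquiv_symm]
  exact IsLocalizedModule.lift_apply (.powers g) (resₗ M (X.basicOpen_le g)) ψ' hunit m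

/-- The germs of sections over an affine open generate the stalk of a quasi-coherent module. -/
theorem linearMap_ext (hM : Coh.IsQCoh M) (hU : IsAffineOpen U) (x : X) (hx : x ∈ U) {Q : Type*} [AddCommGroup Q]
    [Module (X.presheaf.stalk x) Q] (φ φ' : M.presheaf.stalk x →ₗ[X.presheaf.stalk x] Q)
    (h : ∀ m : Γ(M, U), φ (M.presheaf.germ U x hx m) = φ' (M.presheaf.germ U x hx m)) : φ = φ' := by
  refine LinearMap.ext fun t => ?_
  obtain ⟨g, s, hg, hs⟩ := Fdesc.QCohStalk.exists_germ_eq_smul M hU hM x hx t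
  have hu : IsUnit (X.presheaf.germ U x hx g) := (X.mem_basicOpen g x hx).mp hg
  apply hu.smul_left_cancel.1
  rw [← map_smul, ← map_smul, ← hs, h]

/-- Sections with given germs, with finitely many vanishing conditions, on a basic open. -/
theorem exists_basicOpen_le_iInf (hU : IsAffineOpen U) (x : X) (hx : x ∈ U) {ι : Type*} [Finite ι] (V : ι → X.Opens)
    (hV : ∀ i, x ∈ V i) : ∃ g : Γ(X, U), x ∈ X.basicOpen g ∧ ∀ i, X.basicOpen g ≤ V i := by
  let W : X.Opens := ⟨⋂ i, (V i : Set X), isOpen_iInter_of_finite fun i => (V i).isOpen⟩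
  have hW : x ∈ W := Set.mem_iInter.2 hV
  obtain ⟨g, hg, hxg⟩ := hU.exists_basicOpen_le ⟨x, hW⟩ hx
  exact ⟨g, hxg, fun i => hg.trans (show W ≤ V i from fun y hy => Set.mem_iInter.1 hy i)⟩

theorem map_eq_sum {R P : Type*} [CommRing R] [AddCommGroup P] [Module R P] {n : ℕ} (f : (Fin n → R) →ₗ[R] P)
    (v : Fin n → R) : f v = ∑ i, v i • f (Pi.single i 1) := by
  conv_lhs => rw [← Finset.univ_sum_single v]
  rw [map_sum]
  refine Finset.sum_congr rfl fun i _ => ?_
  rw [← map_smul, ← Pi.single_smul, smul_eq_mul, mul_one]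

theorem surjective_homStalk (hM : Coh.IsQCoh M) (hU : IsAffineOpen U) [Module.FinitePresentation Γ(X, U) Γ(M, U)]
    (x : X) (hx : x ∈ U) : Function.Surjective (homStalk M N x) := by
  classical
  intro φ
  obtain ⟨n, m, f, k, hf, hfk⟩ := Module.FinitePresentation.exists_fin' Γ(X, U) Γ(M, U)
  -- lift the images of the generators
  have h1 : ∀ i : Fin n, ∃ (V : X.Opens) (hV : x ∈ V) (t : Γ(N, V)),
      N.presheaf.germ V x hV t = φ (M.presheaf.germ U x hx (f (Pi.single i 1))) :=
    fun i => N.presheaf.exists_germ_eq _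
  choose V hV t ht using h1
  obtain ⟨g, hxg, hg⟩ := exists_basicOpen_le_iInf hU x hx V hV
  -- the linear map on the free module
  let T : ∀ W : X.Opens, W ≤ X.basicOpen g → (Fin n → Γ(X, U)) → Γ(N, W) := fun W hW v =>
    ∑ i, X.presheaf.map (homOfLE (hW.trans (X.basicOpen_le g))).op (v i) •
      N.presheaf.map (homOfLE (hW.trans (hg i))).op (t i)
  have hTres : ∀ (W W' : X.Opens) (hW : W ≤ X.basicOpen g) (hW' : W' ≤ W) v,
      N.presheaf.map (homOfLE hW').op (T W hW v) = T W' (hW'.trans hW) v := by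
    intro W W' hW hW' v
    simp only [T, map_sum]
    refine Finset.sum_congr rfl fun i _ => ?_
    rw [Scheme.Modules.map_smul, res_res]
    congr 1
    rw [← CommRingCat.comp_apply, ← Functor.map_comp]
    rfl
  have hTgerm : ∀ (W : X.Opens) (hW : W ≤ X.basicOpen g) (hxW : x ∈ W) v,
      N.presheaf.germ W x hxW (T W hW v) = φ (M.presheaf.germ U x hx (f v)) := by
    intro W hW hxW v
    rw [map_eq_sum f v, map_sum, map_sum, map_sum]
    refine Finset.sum_congr rfl fun i _ => ?_
    rw [germ_smul, germ_smul, map_smul, ← ht i, germ_map]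
    congr 1
    exact TopCat.Presheaf.germ_res_apply X.presheaf _ x _ (v i)
  -- kill the relations
  have h2 : ∀ j : Fin m, ∃ (W : X.Opens) (_ : x ∈ W) (hW : W ≤ X.basicOpen g), T W hW (k (Pi.single j 1)) = 0 := by
    intro j
    have h3 : N.presheaf.germ (X.basicOpen g) x hxg (T _ le_rfl (k (Pi.single j 1))) = 0 := by
      rw [hTgerm _ le_rfl]
      have h4 : f (k (Pi.single j 1)) = 0 := (hfk _).2 ⟨_, rfl⟩
      rw [h4, map_zero, map_zero]
    obtain ⟨W, hxW, i, i', h⟩ := N.presheaf.germ_eq x hxg hxg _ 0 (by rw [h3, map_zero])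
    rw [map_zero] at h
    refine ⟨W, hxW, i.le, ?_⟩
    rw [← h]
    exact (hTres _ _ le_rfl i.le _).symm
  choose W hxW hW hT0 using h2
  obtain ⟨g', hxg', hg'⟩ := exists_basicOpen_le_iInf hU x hx (fun o : Option (Fin m) => o.elim (X.basicOpen g) W)
    (fun o => by cases o <;> [exact hxg; exact hxW _])
  have hg'g : X.basicOpen g' ≤ X.basicOpen g := hg' none
  have hTadd : ∀ v w, T _ hg'g (v + w) = T _ hg'g v + T _ hg'g w := by
    intro v w
    simp only [T, Pi.add_apply, map_add, add_smul, Finset.sum_add_distrib]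
  have hTsmul : ∀ (r : Γ(X, U)) v, T _ hg'g (r • v) =
      X.presheaf.map (homOfLE (X.basicOpen_le g')).op r • T _ hg'g v := by
    intro r v
    simp only [T, Pi.smul_apply, smul_eq_mul, map_mul, Finset.smul_sum, mul_smul]
  have hTk : ∀ w, T _ hg'g (k w) = 0 := by
    intro w
    let T' : (Fin n → Γ(X, U)) →+ Γ(N, X.basicOpen g') := AddMonoidHom.mk' (T _ hg'g) hTadd
    have hT' : ∀ v, T' v = T _ hg'g v := fun v => rfl
    rw [map_eq_sum k w, ← hT', map_sum]
    refine Finset.sum_eq_zero fun j _ => ?_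
    rw [hT', hTsmul, ← hTres (W j) (X.basicOpen g') (hW j) (hg' (some j)), hT0, map_zero, smul_zero]
  -- descend
  have hTf : ∀ v w, f v = f w → T _ hg'g v = T _ hg'g w := by
    intro v w h
    obtain ⟨y, hy⟩ := (hfk (v - w)).1 (by rw [map_sub, h, sub_self])
    have : v = w + k y := by rw [hy]; abel
    rw [this, hTadd, hTk, add_zero]
  let s : Γ(M, U) → (Fin n → Γ(X, U)) := Function.surjInv hf
  have hs : ∀ y, f (s y) = y := Function.surjInv_eq hf
  obtain ⟨σ, hσ⟩ := exists_section (N := N) hM hU g'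
    (AddMonoidHom.mk' (fun y => T _ hg'g (s y)) (fun y z => by
      rw [← hTadd]
      exact hTf _ _ (by rw [hs, map_add, hs, hs])))
    (fun r y => by
      change T _ hg'g (s (r • y)) = _ • T _ hg'g (s y)
      rw [← hTsmul]
      exact hTf _ _ (by rw [hs, map_smul, hs]))
  refine ⟨(homSheaf M N).presheaf.germ _ x hxg' σ, ?_⟩
  apply linearMap_ext hM hU x hx
  intro y
  rw [← germ_map M (X.basicOpen_le g') x hxg' y, homStalk_germ_germ x hxg' σ _ hxg' le_rfl, hσ, germ_map]
  change N.presheaf.germ _ x hxg' (T _ hg'g (s y)) = _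
  rw [hTgerm _ hg'g, hs]

theorem injective_homStalk (hM : Coh.IsQCoh M) (hU : IsAffineOpen U) [Module.Finite Γ(X, U) Γ(M, U)]
    (x : X) (hx : x ∈ U) : Function.Injective (homStalk M N x) := by
  classical
  rw [injective_iff_map_eq_zero]
  intro t ht
  obtain ⟨V, hxV, s, rfl⟩ := (homSheaf M N).presheaf.exists_germ_eq t
  obtain ⟨n, f, hf⟩ := Module.Finite.exists_fin' Γ(X, U) Γ(M, U)
  obtain ⟨g, hxg, hg⟩ := exists_basicOpen_le_iInf hU x hx (fun _ : Unit => V) (fun _ => hxV)
  have hgV : X.basicOpen g ≤ V := hg ()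
  have h1 : ∀ i : Fin n, ∃ (W : X.Opens) (_ : x ∈ W) (hW : W ≤ X.basicOpen g),
      comp s W (hW.trans hgV) (M.presheaf.map (homOfLE (hW.trans (X.basicOpen_le g))).op (f (Pi.single i 1))) = 0 := by
    intro i
    have h2 := LinearMap.congr_fun ht (M.presheaf.germ U x hx (f (Pi.single i 1)))
    rw [← germ_map M (X.basicOpen_le g) x hxg, homStalk_germ_germ x hxV s _ hxg hgV, LinearMap.zero_apply] at h2
    obtain ⟨W, hxW, j, j', h⟩ := N.presheaf.germ_eq x hxg hxg _ 0 (by rw [h2, map_zero])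
    rw [map_zero] at h
    refine ⟨W, hxW, j.le, ?_⟩
    rw [← res_res M (X.basicOpen_le g) j.le, comp_map s hgV j.le]
    exact h
  choose W hxW hW h0 using h1
  obtain ⟨g', hxg', hg'⟩ := exists_basicOpen_le_iInf hU x hx (fun o : Option (Fin n) => o.elim (X.basicOpen g) W)
    (fun o => by cases o <;> [exact hxg; exact hxW _])
  have hg'g : X.basicOpen g' ≤ X.basicOpen g := hg' none
  have key : (homSheaf M N).presheaf.map (homOfLE (hg'g.trans hgV)).op s = 0 := by
    apply comp_injective hM (hU.basicOpen g')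
    intro m
    obtain ⟨a, y, hy⟩ := Fdesc.QCohStalk.exists_map_eq_pow_smul M hU hM g' m
    have hu : IsUnit (X.presheaf.map (homOfLE (X.basicOpen_le g')).op g') := RingedSpace.isUnit_res_basicOpen _ g'
    apply (hu.pow a).smul_left_cancel.1
    rw [← map_smul, ← map_smul, ← hy]
    obtain ⟨v, rfl⟩ := hf y
    rw [map_eq_sum f v, map_sum, map_sum, map_sum]
    refine Finset.sum_congr rfl fun i _ => ?_
    rw [Scheme.Modules.map_smul, map_smul, map_smul, comp_zero, LinearMap.zero_apply, comp_res]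
    congr 1
    rw [← res_res M ((hW i).trans (X.basicOpen_le g)) (hg' (some i)), comp_map s ((hW i).trans hgV) (hg' (some i)),
      h0, map_zero]
  rw [← germ_map (homSheaf M N) (hg'g.trans hgV) x hxg' s, key, map_zero]

/-- `(Hom(M, N))_x = Hom(M_x, N_x)` if `M` is quasi-coherent with finitely presented sections over an affine
neighbourhood of `x`. -/
theorem bijective_homStalk (hM : Coh.IsQCoh M) (hU : IsAffineOpen U) [Module.FinitePresentation Γ(X, U) Γ(M, U)]
    (x : X) (hx : x ∈ U) : Function.Bijective (homStalk M N x) :=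
  ⟨injective_homStalk hM hU x hx, surjective_homStalk hM hU x hx⟩

end Groth.Agent.Htor.H255.StalkBij
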