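import Groth.Agent.Dcoh.MonPull2_292
import Groth.Agent.Dcoh.MonClosed

/-!
# The canonical map `f^* Hom(F, G) ⟶ Hom(f^* F, f^* G)`

* `theta f F G`; on sections `theta (pb s) (pb m) = pb (s m)` (`comp_theta_pb`);
* `theta_naturality`, and the natural transformation `thetaNat f F`.
-/

set_option autoImplicit false
universe u

open CategoryTheory CategoryTheory.Limits AlgebraicGeometry Opposite TopologicalSpace MonoidalCategory

namespace Groth.Agent.Htor.H255.Theta

open scoped Groth.Agent.Dcoh.MonCat Groth.Agent.Dcoh.MonPull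
open Groth.Agent.Dcoh.MonPull Groth.Agent.Dcoh.MonClosed Groth.Agent.Dcoh.MonTm Groth.Agent.CohqB.HomSheaf
open Functor.LaxMonoidal

variable {X Y : Scheme.{u}} (f : X ⟶ Y)

/-- The canonical map `f^* Hom(F, G) ⟶ Hom(f^* F, f^* G)`. -/
noncomputable def theta (F G : Y.Modules) : (Scheme.Modules.pullback f).obj (homSheaf F G) ⟶
    homSheaf ((Scheme.Modules.pullback f).obj F) ((Scheme.Modules.pullback f).obj G) :=
  curry (μ (Scheme.Modules.pullback f) F (homSheaf F G) ≫ (Scheme.Modules.pullback f).map (ev F G))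

variable {F G G' : Y.Modules}

theorem pb_res (M : Y.Modules) {V W : Y.Opens} (h : W ≤ V) (m : Γ(M, V)) :
    ((Scheme.Modules.pullback f).obj M).presheaf.map (homOfLE (f.preimage_mono h)).op (pb f m) =
      pb f (M.presheaf.map (homOfLE h).op m) :=
  (app_map ((Scheme.Modules.pullbackPushforwardAdjunction f).unit.app M) h m).symm

theorem comp_theta_pb {V W : Y.Opens} (h : W ≤ V) (s : Γ(homSheaf F G, V)) (m : Γ(F, W)) :
    comp ((theta f F G).app (f ⁻¹ᵁ V) (pb f s)) (f ⁻¹ᵁ W) (f.preimage_mono h) (pb f m) =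
      pb f (comp s W h m) := by
  unfold theta
  rw [comp_curry, pb_res f _ h, comp_ap, μ_pb, map_pb, ev_tm]
  rfl

theorem theta_naturality (F : Y.Modules) (g : G ⟶ G') :
    (Scheme.Modules.pullback f).map (homMap F g) ≫ theta f F G' =
      theta f F G ≫ homMap ((Scheme.Modules.pullback f).obj F) ((Scheme.Modules.pullback f).map g) := by
  unfold theta
  rw [← curry_comp, ← curry_whiskerLeft, Category.assoc, ← Functor.map_comp, μ_natural_right_assoc,
    ← Functor.map_comp]
  congr 3
  apply ext₂
  intro U m s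
  rw [comp_ap, comp_ap, whiskerLeft_tm, ev_tm, ev_tm, comp_homMap]

/-- The canonical natural transformation `f^* Hom(F, -) ⟶ Hom(f^* F, f^* -)`. -/
noncomputable def thetaNat (F : Y.Modules) :
    homFunctor F ⋙ Scheme.Modules.pullback f ⟶
      Scheme.Modules.pullback f ⋙ homFunctor ((Scheme.Modules.pullback f).obj F) where
  app G := theta f F G
  naturality _ _ g := theta_naturality f F g

end Groth.Agent.Htor.H255.Theta
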