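import Groth.Agent.Htor.H255.Theta
import Groth.Agent.Htor.H255.StalkBij
import Groth.Agent.Htor.H255.HomBC
import Groth.Agent.PerfC.FlatExact
import Groth.Agent.Desc.FPSections
import Groth.Agent.FormalA.PullbackQC
import Groth.Agent.CohqB.HomSheafCoh
import Groth.Agent.Dcoh.StalkMod

/-!
# `f^* Hom(F, G) ≅ Hom(f^* F, f^* G)` for `f` flat and `F` of finite presentation
-/

set_option autoImplicit false
universe u

open CategoryTheory CategoryTheory.Limits AlgebraicGeometry Opposite TopologicalSpace MonoidalCategory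

namespace Groth.Agent.Htor.H255.ThetaIso

open scoped Groth.Agent.Dcoh.MonCat Groth.Agent.Dcoh.MonPull
open Groth.Agent.Dcoh.MonPull Groth.Agent.Dcoh.MonClosed Groth.Agent.CohqB.HomSheaf
open Groth.Agent.Fdesc.PullbackStalk Groth.Agent.CycB.StalkExact
open Groth.Agent.Htor.H255.HomStalk Groth.Agent.Htor.H255.StalkBij Groth.Agent.Htor.H255.Theta

variable {X Y : Scheme.{u}} (f : X ⟶ Y) {F G : Y.Modules}

theorem canAdd_pb (M : Y.Modules) (x : X) (V : Y.Opens) (hV : f x ∈ V) (hV' : x ∈ f ⁻¹ᵁ V) (s : Γ(M, V)) :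
    canAdd f M x (M.presheaf.germ V (f x) hV s) =
      ((Scheme.Modules.pullback f).obj M).presheaf.germ (f ⁻¹ᵁ V) x hV' (pb f s) :=
  canAdd_germ f M x V hV s

theorem homStalk_theta_germ (x : X) (V : Y.Opens) (hV' : x ∈ f ⁻¹ᵁ V) (s : Γ(homSheaf F G, V))
    (W : Y.Opens) (hW' : x ∈ f ⁻¹ᵁ W) (h : W ≤ V) (m : Γ(F, W)) :
    homStalk ((Scheme.Modules.pullback f).obj F) ((Scheme.Modules.pullback f).obj G) x
      (stalkLin (theta f F G) x (((Scheme.Modules.pullback f).obj (homSheaf F G)).presheaf.germ (f ⁻¹ᵁ V) x hV'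
        (pb f s))) (((Scheme.Modules.pullback f).obj F).presheaf.germ (f ⁻¹ᵁ W) x hW' (pb f m)) =
      ((Scheme.Modules.pullback f).obj G).presheaf.germ (f ⁻¹ᵁ W) x hW' (pb f (comp s W h m)) := by
  rw [stalkLin_germ, homStalk_germ_germ x hV' _ _ hW' (f.preimage_mono h), comp_theta_pb f h]

theorem homStalk_theta (x : X) (s : (homSheaf F G).presheaf.stalk (f x)) (m : F.presheaf.stalk (f x)) :
    homStalk ((Scheme.Modules.pullback f).obj F) ((Scheme.Modules.pullback f).obj G) x
      (stalkLin (theta f F G) x (canAdd f (homSheaf F G) x s)) (canAdd f F x m) =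
      canAdd f G x (homStalk F G (f x) s m) := by
  obtain ⟨V, hV, s, rfl⟩ := TopCat.Presheaf.exists_germ_eq _ s
  obtain ⟨W, hW, m, rfl⟩ := TopCat.Presheaf.exists_germ_eq _ m
  have hWV : f x ∈ W ⊓ V := Opens.mem_inf.2 ⟨hW, hV⟩
  have e : F.presheaf.germ W (f x) hW m = F.presheaf.germ (W ⊓ V) (f x) hWV
      (F.presheaf.map (homOfLE inf_le_left).op m) :=
    (germ_map F inf_le_left (f x) hWV m).symm
  rw [e, homStalk_germ_germ (f x) hV s _ _ inf_le_right]
  exact (congrArg₂ (fun a b => homStalk ((Scheme.Modules.pullback f).obj F) ((Scheme.Modules.pullback f).obj G) x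
    (stalkLin (theta f F G) x a) b) (canAdd_pb f (homSheaf F G) x V hV hV s)
    (canAdd_pb f F x (W ⊓ V) hWV hWV _)).trans ((homStalk_theta_germ f x V hV s (W ⊓ V) hWV inf_le_right
      _).trans (canAdd_pb f G x (W ⊓ V) hWV hWV _).symm)

/-- `f^* Hom(F, G) ⟶ Hom(f^* F, f^* G)` is an isomorphism for `f` flat and `F` finitely presented. -/
theorem isIso_theta (f : X ⟶ Y) [Flat f] (F G : Y.Modules) (hF : Coh.IsQCoh F) (hF' : CohB1.IsFP F) :
    IsIso (theta f F G) := by
  refine Groth.Agent.Dcoh.StalkMod.isIso_of_bijective _ fun x => ?_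
  obtain ⟨U, hU, hxU, -⟩ := Opens.isBasis_iff_nbhd.mp Y.isBasis_affineOpens
    (show f x ∈ (⊤ : Y.Opens) from trivial)
  obtain ⟨W, hW, hxW, -⟩ := Opens.isBasis_iff_nbhd.mp X.isBasis_affineOpens
    (show x ∈ (⊤ : X.Opens) from trivial)
  have hq : Coh.IsQCoh ((Scheme.Modules.pullback f).obj F) := Groth.Agent.FormalA.PullbackQC.isQCoh_pullback f F hF
  have hp : CohB1.IsFP ((Scheme.Modules.pullback f).obj F) := Groth.Agent.FormalA.PullbackQC.isFP_pullback f F hF'
  have p1 : Module.FinitePresentation Γ(Y, U) Γ(F, U) :=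
    Groth.Agent.Desc.FPSections.finitePresentation_sections hU hF hF'
  have p2 : Module.FinitePresentation Γ(X, W) Γ((Scheme.Modules.pullback f).obj F, W) :=
    Groth.Agent.Desc.FPSections.finitePresentation_sections hW hq hp
  have b1 := bijective_homStalk (N := G) hF hU (f x) hxU
  have b2 := bijective_homStalk (N := (Scheme.Modules.pullback f).obj G) hq hW x hxW
  -- finite presentation of the stalk
  have p3 : Module.FinitePresentation (Y.presheaf.stalk (f x)) (F.presheaf.stalk (f x)) := by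
    let i1 : Algebra Γ(Y, U) (Y.presheaf.stalk (f x)) := (Y.presheaf.germ U (f x) hxU).hom.toAlgebra
    have i2 : IsLocalization.AtPrime (Y.presheaf.stalk (f x)) (hU.primeIdealOf ⟨f x, hxU⟩).asIdeal :=
      hU.isLocalization_stalk ⟨f x, hxU⟩
    let i3 : Module Γ(Y, U) (F.presheaf.stalk (f x)) := Groth.Agent.Fdesc.QCohStalk.stalkModule F (f x) hxU
    have i6 : IsScalarTower Γ(Y, U) (Y.presheaf.stalk (f x)) (F.presheaf.stalk (f x)) :=
      IsScalarTower.of_algebraMap_smul fun _ _ => rfl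
    have i9 : IsLocalizedModule (hU.primeIdealOf ⟨f x, hxU⟩).asIdeal.primeCompl
        (Groth.Agent.Fdesc.QCohStalk.germₗ F (f x) hxU) :=
      Groth.Agent.Fdesc.QCohStalk.isLocalizedModule_germ F hU hF (f x) hxU
    exact _root_.FinitePresentation.of_isBaseChange (A := Y.presheaf.stalk (f x))
      (Groth.Agent.Fdesc.QCohStalk.germₗ F (f x) hxU)
      ((isLocalizedModule_iff_isBaseChange (hU.primeIdealOf ⟨f x, hxU⟩).asIdeal.primeCompl _ _).1 i9)
  let a := stalkAlg f x
  have hflat : Module.Flat (Y.presheaf.stalk (f x)) (X.presheaf.stalk x) :=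
    Groth.Agent.PerfC.FlatExact.flat_stalkAlg f x
  let m1 := FlatMod.moduleStalkOver f ((Scheme.Modules.pullback f).obj F) x
  let m2 := FlatMod.moduleStalkOver f ((Scheme.Modules.pullback f).obj G) x
  let m3 := FlatMod.moduleStalkOver f ((Scheme.Modules.pullback f).obj (homSheaf F G)) x
  have s1 := isScalarTower f ((Scheme.Modules.pullback f).obj F) x
  have s2 := isScalarTower f ((Scheme.Modules.pullback f).obj G) x
  have s3 := isScalarTower f ((Scheme.Modules.pullback f).obj (homSheaf F G)) x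
  have key := HomBC.bijective_of_baseChange (A := Y.presheaf.stalk (f x)) (B := X.presheaf.stalk x)
    (can f F x) (isBaseChange_can f F x) (can f G x) (isBaseChange_can f G x) (can f (homSheaf F G) x)
    (isBaseChange_can f (homSheaf F G) x) (LinearEquiv.ofBijective (homStalk F G (f x)) b1)
    ((homStalk ((Scheme.Modules.pullback f).obj F) ((Scheme.Modules.pullback f).obj G) x).comp
      (stalkLin (theta f F G) x)) (fun s m => homStalk_theta f x s m)
  exact (Function.Bijective.of_comp_iff' b2 _).1 key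

theorem isFP_of_isCoh [IsLocallyNoetherian Y] (hF : Coh.IsCoh F) : CohB1.IsFP F :=
  (Groth.Agent.Desc.FPSections.isFP_iff_of_cover hF.1 (fun _ => True) (fun x => by
    obtain ⟨U, hU, hxU, -⟩ := Opens.isBasis_iff_nbhd.mp Y.isBasis_affineOpens
      (show x ∈ (⊤ : Y.Opens) from trivial)
    exact ⟨U, trivial, hU, hxU⟩)).2 fun V _ hV => finitePresentation_of_isCoh hF hV

/-- The natural isomorphism `f^* Hom(F, -) ≅ Hom(f^* F, f^* -)`. -/
noncomputable def thetaIso (f : X ⟶ Y) [Flat f] (F : Y.Modules) (hF : Coh.IsQCoh F) (hF' : CohB1.IsFP F) :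
    homFunctor F ⋙ Scheme.Modules.pullback f ≅
      Scheme.Modules.pullback f ⋙ homFunctor ((Scheme.Modules.pullback f).obj F) :=
  haveI : ∀ G, IsIso ((thetaNat f F).app G) := fun G => isIso_theta f F G hF hF'
  NatIso.ofComponents (fun G => asIso ((thetaNat f F).app G)) (fun g => (thetaNat f F).naturality g)

end Groth.Agent.Htor.H255.ThetaIso
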